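import Mathlib
import Cfsg.Agent.H364.SpSmall
import Cfsg.Agent.OrdDiv.Main

/-!
# S3677, rows `PSp(2n, q)`, `PΩ(2n + 1, q)`: the sporadic groups, arithmetic (helper494)

* `arith` : `n ≥ 5`, `arith3` : `n = 3`, `arith4` : `n = 4`
-/

set_option autoImplicit false
set_option maxRecDepth 100000

namespace Cfsg.Agent.H494.CS

open Finset Cfsg.Agent.OrdDiv Cfsg.Agent.H364.SpVal Cfsg.Agent.H364.SpIneq Cfsg.Agent.H364.SpPrim
  Cfsg.Agent.H364.SpTot Cfsg.Agent.H364.SpSmall

/-- the orders -/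
def NL : List ℕ := [17971200, 7920, 95040, 443520, 10200960, 244823040, 175560, 604800, 50232960, 86775571046077562880,
  4157776806543360000, 42305421312000, 495766656000, 898128000, 44352000, 448345497600, 4030387200, 145926144000,
  460815505920, 51765179004000000, 64561751654400, 4089470473293004800, 1255205709190661721292800, 273030912000000,
  90745943887872000, 4154781481226426191177580544000000, 808017424794512875886459904961710757005754368000000000]

theorem mem_NL : ∀ x ∈ spor, x.2 ∈ NL := by decide +kernel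

theorem NL_le : ∀ N ∈ NL, 0 < N ∧ N ≤ 808017424794512875886459904961710757005754368000000000 := by decide +kernel

/-- the check for `n = 3, 4` -/
def ckA (n c q : ℕ) : Bool := NL.all fun N => !((4 * N) % (q ^ c * AA n q) == 0) || !((q ^ n ^ 2 * AA n q) % N == 0)

/-- the check for `n ≥ 5` -/
def ckB (n q : ℕ) : Bool := good n q (te n q) &&
  NL.all fun N => !((2 * N) % (q ^ cn n * te n q) == 0) || !((q ^ n ^ 2 * AA n q) % N == 0)

/-- the bound for `q` -/
def Qn (n : ℕ) : ℕ :=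
  if n = 5 then 464 else if n = 6 then 3296 else if n = 7 then 43 else if n = 8 then 63 else if n = 9 then 13
  else if n = 10 then 22 else if n = 11 then 7 else if n = 12 then 8 else if n ≤ 16 then 5 else if n ≤ 24 then 3 else 2

/-- `q ≥ Qn n` is too large -/
def ckQ (n : ℕ) : Bool :=
  decide (lam n * 1616034849589025751772919809923421514011508736000000000 < Qn n ^ cn n * (Qn n ^ 2 - 1) ^ ss n)

theorem ckQ_all : ∀ n ∈ List.range 48, n < 5 ∨ ckQ n = true := by
  decide +kernel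

theorem A3 : ∀ q ∈ List.range 4400, q < 2 ∨ ckA 3 3 q = true := by decide +kernel

theorem A4 : ∀ q ∈ List.range 600, q < 2 ∨ ckA 4 0 q = true := by decide +kernel

theorem B5 : ∀ q ∈ List.range 464, q < 2 ∨ ckB 5 q = true := by decide +kernel

theorem B6 : ∀ q ∈ List.range 3296, q < 2 ∨ ckB 6 q = true := by decide +kernel

theorem B7 : ∀ n ∈ List.range 48, n < 7 ∨ ∀ q ∈ List.range (Qn n), q < 2 ∨ ckB n q = true := by decide +kernel

theorem ckB_all {n q : ℕ} (hn : 5 ≤ n) (hn2 : n < 48) (hq : 2 ≤ q) (hq2 : q < Qn n) : ckB n q = true := by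
  by_cases h5 : n = 5
  · subst h5
    exact (B5 q (List.mem_range.2 hq2)).resolve_left (by omega)
  by_cases h6 : n = 6
  · subst h6
    exact (B6 q (List.mem_range.2 hq2)).resolve_left (by omega)
  exact ((B7 n (List.mem_range.2 hn2)).resolve_left (by omega) q (List.mem_range.2 hq2)).resolve_left (by omega)

theorem big {n : ℕ} (hn : 48 ≤ n) :
    lam n * 1616034849589025751772919809923421514011508736000000000 < 3 ^ ss n := by
  have hl := lam_le n
  have hs := ss_bound n
  generalize lam n = L at *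
  generalize ss n = s at *
  set K := n - n / 2 with hK
  have hK2 : 2 * K ≤ n + 1 := by omega
  have hC : 1616034849589025751772919809923421514011508736000000000 < 3 ^ 114 := by norm_num
  have h1 : L ^ 8 ≤ 3 ^ (n * K) := by
    calc L ^ 8 ≤ (n ^ K) ^ 8 := Nat.pow_le_pow_left hl 8
      _ = (n ^ 8) ^ K := by rw [← pow_mul, ← pow_mul, mul_comm]
      _ ≤ (3 ^ n) ^ K := Nat.pow_le_pow_left (pow8 hn) K
      _ = _ := by rw [← pow_mul]
  have h4 : n * K + 912 < 8 * s := by
    have h5 : 2 * (n * K) ≤ n * (n + 1) := by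
      calc 2 * (n * K) = n * (2 * K) := by ring
        _ ≤ _ := Nat.mul_le_mul_left n hK2
    nlinarith
  refine lt_of_pow_lt_pow_left₀ 8 (Nat.zero_le _) ?_
  calc (L * 1616034849589025751772919809923421514011508736000000000) ^ 8
      = L ^ 8 * 1616034849589025751772919809923421514011508736000000000 ^ 8 := mul_pow _ _ _
    _ ≤ 3 ^ (n * K) * (3 ^ 114) ^ 8 := Nat.mul_le_mul h1 (Nat.pow_le_pow_left hC.le 8)
    _ = 3 ^ (n * K + 912) := by rw [← pow_mul, ← pow_add]
    _ < 3 ^ (8 * s) := Nat.pow_lt_pow_right (by norm_num) h4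
    _ = (3 ^ s) ^ 8 := by rw [← pow_mul]; congr 1; ring

theorem Qn_ge (n : ℕ) : 2 ≤ Qn n := by
  unfold Qn
  split_ifs <;> norm_num

/-- the size -/
theorem too_big {n q : ℕ} (hn : 5 ≤ n) (hq : 2 ≤ q) (h : 48 ≤ n ∨ Qn n ≤ q) :
    lam n * 1616034849589025751772919809923421514011508736000000000 < q ^ cn n * (q ^ 2 - 1) ^ ss n := by
  have hq3 : 3 ≤ q ^ 2 - 1 := by
    have : 2 ^ 2 ≤ q ^ 2 := Nat.pow_le_pow_left hq 2
    omega
  by_cases h48 : 48 ≤ n
  · refine (big h48).trans_le ?_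
    calc 3 ^ ss n ≤ (q ^ 2 - 1) ^ ss n := Nat.pow_le_pow_left hq3 _
      _ = 1 * (q ^ 2 - 1) ^ ss n := (one_mul _).symm
      _ ≤ _ := Nat.mul_le_mul_right _ (Nat.one_le_pow _ _ (by omega))
  · have hQ : Qn n ≤ q := h.resolve_left h48
    have h1 := (ckQ_all n (List.mem_range.2 (by omega))).resolve_left (by omega)
    rw [ckQ, decide_eq_true_eq] at h1
    refine h1.trans_le (Nat.mul_le_mul (Nat.pow_le_pow_left hQ _) (Nat.pow_le_pow_left ?_ _))
    exact Nat.sub_le_sub_right (Nat.pow_le_pow_left hQ 2) 1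

/-- **`n ≥ 5`.** -/
theorem arith {n q N I : ℕ} (hn : 5 ≤ n) (hq : 2 ≤ q) (hN : N ∈ NL) (hI : I ∣ 2) (hfr : Fr n q I N)
    (hM : N ∣ q ^ n ^ 2 * AA n q) : False := by
  obtain ⟨hN0, hN1⟩ := NL_le N hN
  have h2N : I * N ∣ 2 * N := Nat.mul_dvd_mul_right hI N
  by_cases h : 48 ≤ n ∨ Qn n ≤ q
  · have h1 := too_big hn hq h
    have h2 := (hfr.gen hq (by omega)).trans h2N
    have h3 := Nat.le_of_dvd (by omega) h2
    have h4 := tt_ge (n := n) (Q := q ^ 2) (by nlinarith)
    have h5 : q ^ cn n * (q ^ 2 - 1) ^ ss n ≤ 2 * N * lam n := by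
      calc q ^ cn n * (q ^ 2 - 1) ^ ss n ≤ q ^ cn n * (tt n (q ^ 2) * lam n) := Nat.mul_le_mul_left _ h4
        _ = q ^ cn n * tt n (q ^ 2) * lam n := by rw [mul_assoc]
        _ ≤ _ := Nat.mul_le_mul_right _ h3
    have h6 : 2 * N * lam n ≤ lam n * 1616034849589025751772919809923421514011508736000000000 := by
      rw [mul_comm (2 * N)]
      apply Nat.mul_le_mul_left
      omega
    omega
  · push Not at h
    have h1 := ckB_all hn h.1 hq h.2
    rw [ckB, Bool.and_eq_true, List.all_eq_true] at h1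
    obtain ⟨h2, h3⟩ := h1
    have h4 := h3 N hN
    have h5 := (hfr.good hq h2).trans h2N
    rw [Nat.mod_eq_zero_of_dvd h5, Nat.mod_eq_zero_of_dvd hM] at h4
    revert h4
    decide

theorem AA_mono {n a b : ℕ} (h : a ≤ b) : AA n a ≤ AA n b :=
  Finset.prod_le_prod' fun _ _ => Nat.sub_le_sub_right (Nat.pow_le_pow_left h _) 1

theorem arithA {n c q N Q : ℕ} (hQ : ∀ q ∈ List.range Q, q < 2 ∨ ckA n c q = true)
    (hQ2 : 4 * 808017424794512875886459904961710757005754368000000000 < Q ^ c * AA n Q) (hq : 2 ≤ q) (hN : N ∈ NL)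
    (hd : q ^ c * AA n q ∣ 4 * N) (hM : N ∣ q ^ n ^ 2 * AA n q) : False := by
  obtain ⟨hN0, hN1⟩ := NL_le N hN
  by_cases h : Q ≤ q
  · have h1 := Nat.le_of_dvd (by omega) hd
    have h2 : Q ^ c * AA n Q ≤ q ^ c * AA n q := Nat.mul_le_mul (Nat.pow_le_pow_left h c) (AA_mono h)
    omega
  · have h1 := (hQ q (List.mem_range.2 (by omega))).resolve_left (by omega)
    rw [ckA, List.all_eq_true] at h1
    have h4 := h1 N hN
    rw [Nat.mod_eq_zero_of_dvd hd, Nat.mod_eq_zero_of_dvd hM] at h4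
    revert h4
    decide

theorem arith3 {q N : ℕ} (hq : 2 ≤ q) (hN : N ∈ NL) (hd : q ^ 3 * AA 3 q ∣ 4 * N) (hM : N ∣ q ^ 3 ^ 2 * AA 3 q) : False :=
  arithA A3 (by decide +kernel) hq hN hd hM

theorem arith4 {q N : ℕ} (hq : 2 ≤ q) (hN : N ∈ NL) (hd : AA 4 q ∣ 4 * N) (hM : N ∣ q ^ 4 ^ 2 * AA 4 q) : False :=
  arithA A4 (by decide +kernel) hq hN (by rwa [pow_zero, one_mul]) hM

end Cfsg.Agent.H494.CS
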